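import Mathlib
import Cfsg.Agent.H170.RC.Four

/-!
# Products of two elements of order five in `SL₂(4)`, `SL₂(9)` (helper170; S2465)
-/

set_option autoImplicit false

namespace Cfsg.Agent.H170.PW

open scoped MatrixGroups
open Cfsg.Agent.H170.RC

section

variable {R : Type*} [CommRing R]

/-- elements of trace `a`, `a ^ 2 + a = 1` -/
theorem pow_five {a : R} (ha : a ^ 2 + a - 1 = 0) (X : SL(2, R)) (ht : X.1 0 0 + X.1 1 1 = a) : X ^ 5 = 1 := by
  have hd : X.1 0 0 * X.1 1 1 - X.1 0 1 * X.1 1 0 = 1 := by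
    have := X.2
    rwa [Matrix.det_fin_two] at this
  have h2 : X.1 * X.1 = a • X.1 - 1 := by
    ext i j
    fin_cases i <;> fin_cases j
    · simp [Matrix.mul_apply, Fin.sum_univ_two]
      linear_combination X.1 0 0 * ht - hd
    · simp [Matrix.mul_apply, Fin.sum_univ_two]
      linear_combination X.1 0 1 * ht
    · simp [Matrix.mul_apply, Fin.sum_univ_two]
      linear_combination X.1 1 0 * ht
    · simp [Matrix.mul_apply, Fin.sum_univ_two]
      linear_combination X.1 1 1 * ht - hd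
  apply Subtype.ext
  have e1 : (X ^ 5).1 = X.1 * X.1 * (X.1 * X.1) * X.1 := by
    have : X ^ 5 = X * X * (X * X) * X := by simp only [pow_succ, pow_zero, one_mul, mul_assoc]
    rw [this]
    rfl
  have e2 : (a • X.1 - 1) * (a • X.1 - 1) = (a * a) • (X.1 * X.1) - (2 * a) • X.1 + 1 := by
    rw [sub_mul, mul_sub, smul_mul_smul_comm, mul_one, one_mul]
    module
  rw [e1, h2, e2, h2]
  have e3 : ((a * a) • (a • X.1 - 1) - (2 * a) • X.1 + 1) * X.1 =
      (a * a * a - 2 * a) • (X.1 * X.1) + (1 - a * a) • X.1 := by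
    rw [add_mul, sub_mul, smul_mul_assoc, sub_mul, smul_mul_assoc, one_mul, smul_mul_assoc]
    module
  rw [e3, h2]
  have c1 : (a * a * a - 2 * a) * a + (1 - a * a) = 0 := by linear_combination (a ^ 2 - a - 1) * ha
  have c2 : -(a * a * a - 2 * a) = 1 := by linear_combination (1 - a) * ha
  have e4 : (a * a * a - 2 * a) • (a • X.1 - 1) + (1 - a * a) • X.1 =
      ((a * a * a - 2 * a) * a + (1 - a * a)) • X.1 + (-(a * a * a - 2 * a)) • (1 : Matrix (Fin 2) (Fin 2) R) := by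
    module
  rw [e4, c1, c2, zero_smul, one_smul, zero_add]
  rfl

end

variable {E : Type*} [Field E]

/-- the condition of solvability -/
def Sol (a : E) : Prop := a ^ 2 + a - 1 = 0 ∧ ∀ m : E, m ≠ 0 → ∃ x P : E, P * (x * m - P) = (x * (a - x) - 1) * m

/-- products of two elements of order five -/
theorem sl_five {a : E} (ha : Sol a) (h5 : (5 : E) ≠ 0) (s t : E) :
    ∃ X Y : SL(2, E), lo s * up t = X * Y ∧ X ^ 5 = 1 ∧ Y ^ 5 = 1 ∧ (∀ c : E, X.1 ≠ c • 1) ∧ ∀ c : E, Y.1 ≠ c • 1 := by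
  obtain ⟨ha1, ha2⟩ := ha
  -- enough: `X` of determinant one and trace `a`, `X⁻¹ g` of trace `b`
  have key : ∀ x1 x2 x3 x4 b : E, x1 * x4 - x2 * x3 = 1 → x1 + x4 = a → b ^ 2 + b - 1 = 0 →
      x4 + x1 * (1 + s * t) - x2 * s - x3 * t = b →
      ∃ X Y : SL(2, E), lo s * up t = X * Y ∧ X ^ 5 = 1 ∧ Y ^ 5 = 1 ∧ (∀ c : E, X.1 ≠ c • 1) ∧ ∀ c : E, Y.1 ≠ c • 1 := by
    intro x1 x2 x3 x4 b hd ht hb htr
    have hns : ∀ (b : E) (Z : SL(2, E)), b ^ 2 + b - 1 = 0 → Z.1 0 0 + Z.1 1 1 = b → ∀ c : E, Z.1 ≠ c • 1 := by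
      intro b Z hb hZ c hc
      have hdet := Z.2
      rw [Matrix.det_fin_two, hc] at hdet
      rw [hc] at hZ
      simp at hdet hZ
      apply h5
      have h1 : b ^ 2 = 4 := by linear_combination 4 * hdet - (c + c + b) * hZ
      have h2 : b = -3 := by linear_combination hb - h1
      rw [h2] at h1
      linear_combination h1
    let X : SL(2, E) := ⟨!![x1, x2; x3, x4], by rw [Matrix.det_fin_two_of]; exact hd⟩
    let Xi : SL(2, E) := ⟨!![x4, -x2; -x3, x1], by rw [Matrix.det_fin_two_of]; linear_combination hd⟩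
    have hXX : X * Xi = 1 := by
      apply Subtype.ext
      show !![x1, x2; x3, x4] * !![x4, -x2; -x3, x1] = 1
      ext i j
      fin_cases i <;> fin_cases j
      · simp [Matrix.mul_apply, Fin.sum_univ_two]
        linear_combination hd
      · simp [Matrix.mul_apply, Fin.sum_univ_two]
        ring
      · simp [Matrix.mul_apply, Fin.sum_univ_two]
        ring
      · simp [Matrix.mul_apply, Fin.sum_univ_two]
        linear_combination hd
    have hYt : (Xi * (lo s * up t)).1 0 0 + (Xi * (lo s * up t)).1 1 1 = b := by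
      show (!![x4, -x2; -x3, x1] * (!![1, 0; s, 1] * !![1, t; 0, 1])) 0 0 +
        (!![x4, -x2; -x3, x1] * (!![1, 0; s, 1] * !![1, t; 0, 1])) 1 1 = b
      simp [Matrix.mul_apply, Fin.sum_univ_two]
      linear_combination htr
    refine ⟨X, Xi * (lo s * up t), ?_, pow_five ha1 X ht, pow_five hb _ hYt, hns a X ha1 ht, hns b _ hb hYt⟩
    rw [← mul_assoc, hXX, one_mul]
  have hb' : (-1 - a) ^ 2 + (-1 - a) - 1 = 0 := by linear_combination ha1
  have hab : a - (-1 - a) ≠ 0 := by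
    intro h
    apply h5
    linear_combination (2 * a + 1) * h - 4 * ha1
  by_cases hs : s = 0
  · by_cases ht : t = 0
    · subst hs ht
      exact key 0 (-1) 1 a a (by ring) (by ring) ha1 (by ring)
    · subst hs
      have h1 : (a - (-1 - a)) / t ≠ 0 := div_ne_zero hab ht
      refine key 0 (-((a - (-1 - a)) / t)⁻¹) ((a - (-1 - a)) / t) a (-1 - a) ?_ (by ring) hb' ?_
      · field_simp
        ring
      · field_simp
        ring
  · by_cases ht : t = 0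
    · subst ht
      have h1 : (a - (-1 - a)) / s ≠ 0 := div_ne_zero hab hs
      refine key 0 ((a - (-1 - a)) / s) (-((a - (-1 - a)) / s)⁻¹) a (-1 - a) ?_ (by ring) hb' ?_
      · field_simp
        ring
      · field_simp
        ring
    · obtain ⟨x, P, hP⟩ := ha2 (s * t) (mul_ne_zero hs ht)
      refine key x (P / s) ((x * (s * t) - P) / t) (a - x) a ?_ (by ring) ha1 ?_
      · field_simp
        linear_combination -hP
      · field_simp
        ring

/-! ### The fields with four and nine elements -/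

/-- transport of `Sol` -/
theorem Sol.map {K : Type*} [Field K] (f : K ≃+* E) {a : K} (h : Sol a) : Sol (f a) := by
  refine ⟨?_, ?_⟩
  · rw [← map_pow, ← map_add, ← map_one f, ← map_sub, h.1, map_zero]
  · intro m hm
    obtain ⟨x, P, hP⟩ := h.2 (f.symm m) (by
      intro h0
      exact hm ((map_eq_zero_iff f.symm f.symm.injective).1 h0))
    refine ⟨f x, f P, ?_⟩
    have h1 := congrArg f hP
    simp only [map_mul, map_sub, map_one, RingEquiv.apply_symm_apply] at h1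
    exact h1

theorem sol_four : ∃ (K : Type) (_ : Field K) (_ : Fintype K) (a : K), Fintype.card K = 4 ∧ Sol a := by
  have : Fact (∀ r : ZMod 2, r ^ 2 ≠ 1 + 1 * r) := ⟨by decide⟩
  let _ : Fintype (QuadraticAlgebra (ZMod 2) 1 1) := Fintype.ofEquiv _ (QuadraticAlgebra.equivProd 1 1).symm
  refine ⟨QuadraticAlgebra (ZMod 2) 1 1, inferInstance, inferInstance, ⟨0, 1⟩, ?_, ?_, ?_⟩
  · rw [Fintype.card_congr (QuadraticAlgebra.equivProd 1 1)]
    simp
  · have h1 : (⟨0, 1⟩ * ⟨0, 1⟩ + ⟨0, 1⟩ - ⟨1, 0⟩ : QuadraticAlgebra (ZMod 2) 1 1) = ⟨0, 0⟩ := by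
      refine QuadraticAlgebra.ext ?_ ?_
      · simp only [QuadraticAlgebra.mk_mul_mk, QuadraticAlgebra.re_sub, QuadraticAlgebra.re_add]
        decide
      · simp only [QuadraticAlgebra.mk_mul_mk, QuadraticAlgebra.im_sub, QuadraticAlgebra.im_add]
        decide
    rw [pow_two]
    exact h1
  · rintro ⟨m0, m1⟩ hm
    have hm' : ¬ (m0 = 0 ∧ m1 = 0) := by
      rintro ⟨rfl, rfl⟩
      exact hm rfl
    have key : ∀ m0 m1 : ZMod 2, ¬ (m0 = 0 ∧ m1 = 0) → ∃ x0 x1 p0 p1 : ZMod 2,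
        ((⟨p0, p1⟩ : QuadraticAlgebra (ZMod 2) 1 1) * (⟨x0, x1⟩ * ⟨m0, m1⟩ - ⟨p0, p1⟩)).re =
          ((⟨x0, x1⟩ * (⟨0, 1⟩ - ⟨x0, x1⟩) - ⟨1, 0⟩) * ⟨m0, m1⟩ : QuadraticAlgebra (ZMod 2) 1 1).re ∧
        ((⟨p0, p1⟩ : QuadraticAlgebra (ZMod 2) 1 1) * (⟨x0, x1⟩ * ⟨m0, m1⟩ - ⟨p0, p1⟩)).im =
          ((⟨x0, x1⟩ * (⟨0, 1⟩ - ⟨x0, x1⟩) - ⟨1, 0⟩) * ⟨m0, m1⟩ : QuadraticAlgebra (ZMod 2) 1 1).im := by
      simp only [QuadraticAlgebra.mk_mul_mk, QuadraticAlgebra.mk_sub_mk]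
      decide
    obtain ⟨x0, x1, p0, p1, h1, h2⟩ := key m0 m1 hm'
    exact ⟨⟨x0, x1⟩, ⟨p0, p1⟩, QuadraticAlgebra.ext h1 h2⟩

theorem sol_nine : ∃ (K : Type) (_ : Field K) (_ : Fintype K) (a : K), Fintype.card K = 9 ∧ Sol a := by
  have : Fact (∀ r : ZMod 3, r ^ 2 ≠ 2 + 0 * r) := ⟨by decide⟩
  let _ : Fintype (QuadraticAlgebra (ZMod 3) 2 0) := Fintype.ofEquiv _ (QuadraticAlgebra.equivProd 2 0).symm
  refine ⟨QuadraticAlgebra (ZMod 3) 2 0, inferInstance, inferInstance, ⟨1, 1⟩, ?_, ?_, ?_⟩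
  · rw [Fintype.card_congr (QuadraticAlgebra.equivProd 2 0)]
    simp
  · have h1 : (⟨1, 1⟩ * ⟨1, 1⟩ + ⟨1, 1⟩ - ⟨1, 0⟩ : QuadraticAlgebra (ZMod 3) 2 0) = ⟨0, 0⟩ := by
      refine QuadraticAlgebra.ext ?_ ?_
      · simp only [QuadraticAlgebra.mk_mul_mk, QuadraticAlgebra.re_sub, QuadraticAlgebra.re_add]
        decide
      · simp only [QuadraticAlgebra.mk_mul_mk, QuadraticAlgebra.im_sub, QuadraticAlgebra.im_add]
        decide
    rw [pow_two]
    exact h1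
  · rintro ⟨m0, m1⟩ hm
    have hm' : ¬ (m0 = 0 ∧ m1 = 0) := by
      rintro ⟨rfl, rfl⟩
      exact hm rfl
    have key : ∀ m0 m1 : ZMod 3, ¬ (m0 = 0 ∧ m1 = 0) → ∃ x0 x1 p0 p1 : ZMod 3,
        ((⟨p0, p1⟩ : QuadraticAlgebra (ZMod 3) 2 0) * (⟨x0, x1⟩ * ⟨m0, m1⟩ - ⟨p0, p1⟩)).re =
          ((⟨x0, x1⟩ * (⟨1, 1⟩ - ⟨x0, x1⟩) - ⟨1, 0⟩) * ⟨m0, m1⟩ : QuadraticAlgebra (ZMod 3) 2 0).re ∧
        ((⟨p0, p1⟩ : QuadraticAlgebra (ZMod 3) 2 0) * (⟨x0, x1⟩ * ⟨m0, m1⟩ - ⟨p0, p1⟩)).im =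
          ((⟨x0, x1⟩ * (⟨1, 1⟩ - ⟨x0, x1⟩) - ⟨1, 0⟩) * ⟨m0, m1⟩ : QuadraticAlgebra (ZMod 3) 2 0).im := by
      simp only [QuadraticAlgebra.mk_mul_mk, QuadraticAlgebra.mk_sub_mk]
      decide +kernel
    obtain ⟨x0, x1, p0, p1, h1, h2⟩ := key m0 m1 hm'
    exact ⟨⟨x0, x1⟩, ⟨p0, p1⟩, QuadraticAlgebra.ext h1 h2⟩

/-- a field with four or nine elements -/
theorem exists_sol [Finite E] (hE : Nat.card E = 4 ∨ Nat.card E = 9) : ∃ a : E, Sol a := by
  have := Fintype.ofFinite E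
  rcases hE with h | h
  · obtain ⟨K, _, _, a, hK, ha⟩ := sol_four
    have f : K ≃+* E := FiniteField.ringEquivOfCardEq (by rw [hK, ← Nat.card_eq_fintype_card, h])
    exact ⟨f a, ha.map f⟩
  · obtain ⟨K, _, _, a, hK, ha⟩ := sol_nine
    have f : K ≃+* E := FiniteField.ringEquivOfCardEq (by rw [hK, ← Nat.card_eq_fintype_card, h])
    exact ⟨f a, ha.map f⟩

theorem five_ne [Finite E] (hE : Nat.card E = 4 ∨ Nat.card E = 9) : (5 : E) ≠ 0 := by
  intro h
  have := Fintype.ofFinite E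
  have h1 : (Nat.card E : E) = 0 := by
    rw [Nat.card_eq_fintype_card]
    exact Nat.cast_card_eq_zero E
  rcases hE with h2 | h2 <;> rw [h2] at h1
  · push_cast at h1
    apply one_ne_zero (α := E)
    linear_combination h - h1
  · push_cast at h1
    apply one_ne_zero (α := E)
    linear_combination 2 * h - h1

end Cfsg.Agent.H170.PW
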