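import Mathlib
import Cfsg.Agent.H170.PW.SLFive
import Cfsg.Agent.H140.OreO.Frame

/-!
# `Ω₄⁻(2)`, `Ω₄⁻(3)`: products of two elements of order five (helper170; S2465)

`minus_four` : `V` of dimension four over a field with two or three elements, a frame of length one with anisotropic
complement, `g ∈ O Q` with corner `1` and Schur complement `1`: `g = x * y`, `x ^ 5 = y ^ 5 = 1`, `x ≠ 1`, `y ≠ 1`.
-/

set_option autoImplicit false

namespace Cfsg.Agent.H170.PW

open QuadraticMap Module
open scoped MatrixGroups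
open Cfsg.Agent.LieClassical.OrthCore Cfsg.Agent.LieClassical.OrthTrans Cfsg.Agent.H170.RC

variable {F V : Type*} [Field F] [AddCommGroup V] [Module F V] {Q : QuadraticForm F V}

/-- decomposition along a hyperbolic pair -/
theorem exists_dec {x y : V} (hxy : Hyp Q x y) (z : V) : ∃ v, z = polar Q y z • x + polar Q x z • y + v ∧
    polar Q x v = 0 ∧ polar Q y v = 0 := by
  refine ⟨Cfsg.Agent.LieClassical.OrthTrans.proj Q x y z, ?_, polar_proj_left hxy z, polar_proj_right hxy z⟩
  rw [Cfsg.Agent.LieClassical.OrthTrans.proj]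
  abel

/-- minus type from an anisotropic complement -/
theorem minus4_of (hQ : Nondeg Q) (h4 : finrank F V = 4) {x y : V} (hxy : Hyp Q x y)
    (han : ∀ v, polar Q x v = 0 → polar Q y v = 0 → Q v = 0 → v = 0) : Minus4 Q := by
  have keyx : ∀ z, Q z = 0 → polar Q x z = 0 → z = polar Q y z • x := by
    intro z hz hxz
    obtain ⟨v, hv, hxv, hyv⟩ := exists_dec hxy z
    rw [hxz, zero_smul, add_zero] at hv
    generalize polar Q y z = b at hv ⊢
    have h1 : Q v = 0 := by
      rw [hv, Q_add, QuadraticMap.map_smul, hxy.left, polar_smul_left, hxv] at hz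
      simpa using hz
    rw [han v hxv hyv h1, add_zero] at hv
    exact hv
  have keyy : ∀ z, Q z = 0 → polar Q y z = 0 → z = polar Q x z • y := by
    intro z hz hyz
    obtain ⟨v, hv, hxv, hyv⟩ := exists_dec hxy z
    rw [hyz, zero_smul, zero_add] at hv
    generalize polar Q x z = b at hv ⊢
    have h1 : Q v = 0 := by
      rw [hv, Q_add, QuadraticMap.map_smul, hxy.right, polar_smul_left, hyv] at hz
      simpa using hz
    rw [han v hxv hyv h1, add_zero] at hv
    exact hv
  refine ⟨hQ, h4, ⟨x, hxy.left_ne, hxy.left⟩, ?_⟩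
  intro u v hu hv huv hu0
  have hsing : ∀ a b : F, Q (a • u - b • v) = 0 := by
    intro a b
    rw [sub_eq_add_neg, Q_add, QuadraticMap.map_neg, QuadraticMap.map_smul, QuadraticMap.map_smul, hu, hv,
      polar_neg_right, polar_smul_left, polar_smul_right, huv]
    simp
  -- the case of two vectors orthogonal to `x` or `y`
  have fin : ∀ z : V, (∀ t, Q t = 0 → polar Q z t = 0 → ∃ a : F, t = a • z) →
      polar Q z v • u - polar Q z u • v = 0 → ∃ a : F, v = a • u := by
    intro z hz h0
    by_cases h1 : polar Q z u = 0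
    · have h2 : polar Q z v = 0 := by
        rw [h1, zero_smul, sub_zero] at h0
        exact (smul_eq_zero.1 h0).resolve_right hu0
      obtain ⟨a, ha⟩ := hz u hu h1
      obtain ⟨b, hb⟩ := hz v hv h2
      have ha0 : a ≠ 0 := by
        rintro rfl
        exact hu0 (by rw [ha, zero_smul])
      exact ⟨b / a, by rw [hb, ha, smul_smul, div_mul_cancel₀ _ ha0]⟩
    · exact ⟨(polar Q z u)⁻¹ * polar Q z v, by
        rw [mul_smul, sub_eq_zero.1 h0, smul_smul, inv_mul_cancel₀ h1, one_smul]⟩
  have h1 := keyx (polar Q x v • u - polar Q x u • v) (hsing _ _) (by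
    rw [polar_sub_right, polar_smul_right, polar_smul_right, smul_eq_mul, smul_eq_mul]; ring)
  have h2 := keyy (polar Q y v • u - polar Q y u • v) (hsing _ _) (by
    rw [polar_sub_right, polar_smul_right, polar_smul_right, smul_eq_mul, smul_eq_mul]; ring)
  generalize hα : polar Q y (polar Q x v • u - polar Q x u • v) = α at h1
  generalize hβ : polar Q x (polar Q y v • u - polar Q y u • v) = β at h2
  have h3 : polar Q (polar Q x v • u - polar Q x u • v) (polar Q y v • u - polar Q y u • v) = 0 := by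
    have h4 := hsing (polar Q x v + polar Q y v) (polar Q x u + polar Q y u)
    have h5 : (polar Q x v + polar Q y v) • u - (polar Q x u + polar Q y u) • v =
        (polar Q x v • u - polar Q x u • v) + (polar Q y v • u - polar Q y u • v) := by module
    rw [h5, Q_add, hsing, hsing, zero_add, zero_add] at h4
    exact h4
  have h4 : α * β = 0 := by
    have h5 := h3
    rw [h1, h2, polar_smul_left, polar_smul_right, hxy.pair] at h5
    simpa using h5
  rcases mul_eq_zero.1 h4 with h5 | h5
  · rw [h5, zero_smul] at h1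
    exact fin x (fun t ht hxt => ⟨_, keyx t ht hxt⟩) h1
  · rw [h5, zero_smul] at h2
    exact fin y (fun t ht hyt => ⟨_, keyy t ht hyt⟩) h2

/-- elements with corner `1` and Schur complement `1` -/
theorem eq_siegel {x y : V} (hxy : Hyp Q x y) {g : V ≃ₗ[F] V} (hg : g ∈ O Q) (hc : polar Q y (g x) = 1)
    (hs : ∀ v, polar Q x v = 0 → polar Q y v = 0 → ∃ c d : F, g (v + c • x) = v + d • y) :
    ∃ (r s : V) (hr : polar Q y r = 0) (hs : polar Q x s = 0), polar Q x r = 0 ∧ polar Q y s = 0 ∧
      g = siegel Q y r hxy.right hr * siegel Q x s hxy.left hs := by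
  obtain ⟨r, hr, hxr, hyr⟩ := exists_dec hxy (g x)
  rw [hc, one_smul] at hr
  obtain ⟨μ, hμ⟩ : ∃ μ, μ = polar Q x (g x) := ⟨_, rfl⟩
  rw [← hμ] at hr
  have hQr : μ = - Q r := by
    have h1 : Q (g x) = 0 := by rw [mem_O.1 hg, hxy.left]
    rw [hr, Q_add, Q_add, polar_add_left, polar_smul_left, polar_smul_right, hxy.pair, hxr, hyr, hxy.left,
      QuadraticMap.map_smul, hxy.right] at h1
    simp at h1
    linear_combination h1
  have h1 : siegel Q y r hxy.right hyr x = g x := by
    rw [siegel_apply, hxy.pair', polar_comm _ r x, hxr, hr, hQr]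
    module
  obtain ⟨g1, hg1⟩ : ∃ g1, g1 = (siegel Q y r hxy.right hyr)⁻¹ * g := ⟨_, rfl⟩
  have hgg : g = siegel Q y r hxy.right hyr * g1 := by rw [hg1, mul_inv_cancel_left]
  have hg1O : g1 ∈ O Q := by
    rw [hg1]
    exact (O Q).mul_mem ((O Q).inv_mem (siegel_mem_O _ _)) hg
  have hg1x : g1 x = x := by
    apply (siegel Q y r hxy.right hyr).injective
    rw [← LinearEquiv.mul_apply, ← hgg, h1]
  have hperp : ∀ v, polar Q x v = 0 → polar Q y v = 0 → ∃ c : F, g1 v = v - c • x := by
    intro v hxv hyv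
    obtain ⟨c, d, hcd⟩ := hs v hxv hyv
    have h2 : g1 (v + c • x) = v + (d + polar Q r v) • y := by
      apply (siegel Q y r hxy.right hyr).injective
      rw [← LinearEquiv.mul_apply, ← hgg, hcd, siegel_apply, polar_add_right, polar_add_right, polar_smul_right,
        polar_smul_right, hyv, hxy.polar_right, polar_comm _ r y, hyr]
      module
    have h3 : polar Q x (g1 (v + c • x)) = 0 := by
      have h4 := polar_map hg1O x (v + c • x)
      rw [hg1x] at h4
      rw [h4, polar_add_right, polar_smul_right, hxv, hxy.polar_left]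
      simp
    have h4 : d + polar Q r v = 0 := by
      rw [h2, polar_add_right, polar_smul_right, hxv, hxy.pair] at h3
      simpa using h3
    rw [h4, zero_smul, add_zero, map_add, map_smul, hg1x] at h2
    exact ⟨c, eq_sub_of_add_eq h2⟩
  obtain ⟨s, hs1, hxs, hys⟩ := exists_dec hxy (g1 y)
  have hx1 : polar Q x (g1 y) = 1 := by
    have h4 := polar_map hg1O x y
    rw [hg1x, hxy.pair] at h4
    exact h4
  rw [hx1, one_smul] at hs1
  obtain ⟨ν, hν⟩ : ∃ ν, ν = polar Q y (g1 y) := ⟨_, rfl⟩
  rw [← hν] at hs1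
  have hQs : ν = - Q s := by
    have h1 : Q (g1 y) = 0 := by rw [mem_O.1 hg1O, hxy.right]
    rw [hs1, Q_add, Q_add, polar_add_left, polar_smul_left, polar_smul_left, hxy.pair, hxs, hys, hxy.right,
      QuadraticMap.map_smul, hxy.left] at h1
    simp at h1
    linear_combination h1
  refine ⟨r, s, hyr, hxs, hxr, hys, ?_⟩
  rw [hgg]
  congr 1
  ext z
  obtain ⟨v, hv, hxv, hyv⟩ := exists_dec hxy z
  obtain ⟨c, hc⟩ := hperp v hxv hyv
  have hcs : c = polar Q s v := by
    have h4 := polar_map hg1O v y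
    rw [hc, hs1, polar_comm _ v y, hyv, polar_sub_left, polar_add_right, polar_add_right, polar_add_right,
      polar_add_right, polar_smul_right, polar_smul_right, polar_smul_left, polar_smul_left, polar_smul_left,
      hxy.polar_left, hxy.pair, hxs, polar_comm _ v x, hxv, polar_comm _ v y, hyv, polar_comm _ v s] at h4
    simp at h4
    linear_combination -h4
  have hsz : polar Q s z = polar Q s v := by
    rw [hv, polar_add_right, polar_add_right, polar_smul_right, polar_smul_right, polar_comm _ s x, hxs,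
      polar_comm _ s y, hys]
    simp
  rw [siegel_apply, hsz]
  generalize polar Q x z = b at hv ⊢
  generalize polar Q y z = a at hv
  rw [hv, map_add, map_add, map_smul, map_smul, hg1x, hs1, hc, hcs, hQs]
  module

open Cfsg.Agent.LieClassical in
/-- the model with a prescribed hyperbolic pair -/
theorem exists_model_hyp (h : Minus4 Q) {x y : V} (hxy : Hyp Q x y) :
    ∃ (c d k : F) (e : OrthFourMinus.V F c d ≃ₗ[F] V), k ≠ 0 ∧
    (∀ r : F, r ^ 2 ≠ c + d * r) ∧ (∀ v, Q (e v) = k * OrthFourMinus.Q c d v) ∧ e (1, 0, 0) = x ∧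
      e (0, 1, 0) = k • y := by
  have hfin := h.fin
  obtain ⟨r, s, hxr, hyr, hxs, hys, hrs⟩ := h.exists_rs hxy
  have hyx : polar Q y x = 1 := hxy.pair'
  obtain ⟨k, hk⟩ : ∃ k, k = Q r := ⟨_, rfl⟩
  have hr0 : r ≠ 0 := by
    intro h0
    have := (hrs 1 0 (by rw [h0]; simp)).1
    exact one_ne_zero this
  have hk0 : k ≠ 0 := by
    intro h0
    exact hr0 (h.aniso hxy hxr hyr (by rw [← hk, h0]))
  obtain ⟨d, hd⟩ : ∃ d, polar Q r s = k * d := ⟨polar Q r s / k, by field_simp⟩
  obtain ⟨c, hc⟩ : ∃ c, Q s = - (k * c) := ⟨-Q s / k, by field_simp⟩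
  let e : OrthFourMinus.V F c d →ₗ[F] V :=
    { toFun := fun v => v.1 • x + (k * v.2.1) • y + (v.2.2.re • r + v.2.2.im • s)
      map_add' := fun v w => by
        simp only [Prod.fst_add, Prod.snd_add, QuadraticAlgebra.re_add, QuadraticAlgebra.im_add]
        module
      map_smul' := fun a v => by
        simp only [Prod.smul_fst, Prod.smul_snd, QuadraticAlgebra.re_smul, QuadraticAlgebra.im_smul, smul_eq_mul,
          RingHom.id_apply]
        module }
  have he : ∀ v, e v = v.1 • x + (k * v.2.1) • y + (v.2.2.re • r + v.2.2.im • s) := fun v => rfl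
  have hinj : Function.Injective e := by
    rw [← LinearMap.ker_eq_bot, LinearMap.ker_eq_bot']
    intro v hv
    rw [he] at hv
    have h1 : v.1 = 0 := by
      have := congrArg (polar Q y) hv
      simp only [polar_add_right, polar_smul_right, hyx, hxy.polar_right, hyr, hys, smul_eq_mul, mul_one, mul_zero,
        add_zero, polar_zero_right] at this
      exact this
    have h2 : v.2.1 = 0 := by
      have := congrArg (polar Q x) hv
      simp only [polar_add_right, polar_smul_right, hxy.pair, hxy.polar_left, hxr, hxs, smul_eq_mul, mul_one, mul_zero,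
        add_zero, zero_add, polar_zero_right] at this
      exact (mul_eq_zero.1 this).resolve_left hk0
    rw [h1, h2, mul_zero, zero_smul, zero_smul, zero_add, zero_add] at hv
    obtain ⟨h3, h4⟩ := hrs _ _ hv
    refine Prod.ext h1 (Prod.ext h2 ?_)
    exact QuadraticAlgebra.ext h3 h4
  have hfr : finrank F (OrthFourMinus.V F c d) = finrank F V := by
    rw [h.dim, finrank_prod, finrank_prod, finrank_self, QuadraticAlgebra.finrank_eq_two]
  have hfd : FiniteDimensional F (OrthFourMinus.V F c d) :=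
    FiniteDimensional.of_finrank_pos (by rw [hfr, h.dim]; norm_num)
  have hQe : ∀ v, Q (e v) = k * OrthFourMinus.Q c d v := by
    intro v
    rw [he, Q_add, Q_add, Q_add]
    simp only [QuadraticMap.map_smul, polar_add_left, polar_add_right, polar_smul_left, polar_smul_right, hxy.left,
      hxy.right, hxy.pair, hxr, hxs, hyr, hys, smul_eq_mul]
    rw [hd, hc, ← hk, OrthFourMinus.Q, QuadraticAlgebra.norm_def]
    ring
  refine ⟨c, d, k, LinearMap.linearEquivOfInjective e hinj hfr, hk0, ?_, hQe, ?_, ?_⟩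
  swap
  · show e (1, 0, 0) = x
    rw [he]
    simp
  swap
  · show e (0, 1, 0) = k • y
    rw [he]
    simp
  intro t ht
  have h1 : Q (t • r + (-1 : F) • s) = 0 := by
    rw [Q_add, QuadraticMap.map_smul, QuadraticMap.map_smul, polar_smul_left, polar_smul_right, ← hk, hd, hc]
    simp only [smul_eq_mul]
    linear_combination k * ht
  have h2 := h.aniso hxy (z := t • r + (-1 : F) • s) (by
    rw [polar_add_right, polar_smul_right, polar_smul_right, hxr, hxs]; simp) (by
    rw [polar_add_right, polar_smul_right, polar_smul_right, hyr, hys]; simp) h1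
  have h3 := (hrs _ _ h2).2
  exact one_ne_zero (neg_eq_zero.1 h3)

/-- **Products of two elements of order five.** -/
theorem four_siegel [Finite F] (hF : Nat.card F = 2 ∨ Nat.card F = 3) (h : Minus4 Q) {x y r s : V} (hxy : Hyp Q x y)
    (hyr : polar Q y r = 0) (hxs : polar Q x s = 0) (hxr : polar Q x r = 0) (hys : polar Q y s = 0) :
    ∃ X Y : V ≃ₗ[F] V, X ∈ E Q ∧ Y ∈ E Q ∧ siegel Q y r hxy.right hyr * siegel Q x s hxy.left hxs = X * Y ∧
      X ^ 5 = 1 ∧ Y ^ 5 = 1 ∧ X ≠ 1 ∧ Y ≠ 1 := by
  obtain ⟨c, d, k, e, hk, hab, he, hex, hey⟩ := exists_model_hyp h hxy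
  have : Fact (∀ r : F, r ^ 2 ≠ c + d * r) := ⟨hab⟩
  have hfinE : Finite (Cfsg.Agent.LieClassical.OrthFourMinus.E F c d) :=
    Finite.of_equiv _ (QuadraticAlgebra.equivProd c d).symm
  have hcard : Nat.card (Cfsg.Agent.LieClassical.OrthFourMinus.E F c d) = 4 ∨
      Nat.card (Cfsg.Agent.LieClassical.OrthFourMinus.E F c d) = 9 := by
    rw [Nat.card_congr (QuadraticAlgebra.equivProd c d), Nat.card_prod]
    rcases hF with h | h <;> rw [h] <;> norm_num
  obtain ⟨a, ha⟩ := exists_sol hcard
  obtain ⟨⟨r1, r2, ρ⟩, hr⟩ := e.surjective r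
  obtain ⟨⟨s1, s2, σ⟩, hs⟩ := e.surjective s
  have hr2 : r2 = 0 := by
    have h1 := polar_e10 he (r1, r2, ρ)
    rw [hex, hr, hxr] at h1
    exact (mul_eq_zero.1 h1.symm).resolve_left hk
  have hr1 : r1 = 0 := by
    have h1 := polar_e01 he (r1, r2, ρ)
    rw [hey, hr, polar_smul_left, hyr, smul_zero] at h1
    exact (mul_eq_zero.1 h1.symm).resolve_left hk
  have hs2 : s2 = 0 := by
    have h1 := polar_e10 he (s1, s2, σ)
    rw [hex, hs, hxs] at h1
    exact (mul_eq_zero.1 h1.symm).resolve_left hk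
  have hs1 : s1 = 0 := by
    have h1 := polar_e01 he (s1, s2, σ)
    rw [hey, hs, polar_smul_left, hys, smul_zero] at h1
    exact (mul_eq_zero.1 h1.symm).resolve_left hk
  subst hr1 hr2 hs1 hs2
  obtain ⟨X, Y, hXY, hX, hY, hXn, hYn⟩ := sl_five ha (five_ne hcard) (star ρ) (-(k • σ))
  have hE := range_le he hk hab
  have hne : ∀ Z : SL(2, Cfsg.Agent.LieClassical.OrthFourMinus.E F c d),
      (∀ c' : Cfsg.Agent.LieClassical.OrthFourMinus.E F c d, Z.1 ≠ c' • 1) → Ph e Z ≠ 1 := by
    intro Z hZ h1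
    have h2 : Cfsg.Agent.LieClassical.OrthFourMinus.phi Z = 1 := by
      apply Subtype.ext
      apply (th e).injective
      rw [OneMemClass.coe_one, map_one]
      exact h1
    have h3 := Cfsg.Agent.LieClassical.OrthFourMinus.mem_center_of_phi_eq_one h2
    rw [Matrix.SpecialLinearGroup.mem_center_iff] at h3
    obtain ⟨t, -, ht⟩ := h3
    apply hZ t
    rw [← ht, Matrix.smul_one_eq_diagonal]
    rfl
  refine ⟨Ph e X, Ph e Y, hE ⟨X, rfl⟩, hE ⟨Y, rfl⟩, ?_, by rw [← map_pow, hX, map_one], by rw [← map_pow, hY, map_one],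
    hne X hXn, hne Y hYn⟩
  rw [← map_mul, ← hXY, map_mul]
  congr 1
  · have hw : polar Q (e (0, 1, 0)) (k⁻¹ • e (0, 0, star (star ρ))) = 0 := by
      rw [polar_smul_right, polar_e01 he]; simp
    rw [Ph_lo he hk _ (Q_e01 he) hw]
    ext v
    rw [siegel_apply, siegel_apply, hey, star_star, hr, polar_smul_left, polar_smul_left, QuadraticMap.map_smul]
    simp only [smul_eq_mul, smul_smul]
    have e1 : k * polar Q y v * k⁻¹ = polar Q y v := by field_simp
    have e2 : k⁻¹ * polar Q r v * k = polar Q r v := by field_simp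
    have e3 : k⁻¹ * k⁻¹ * Q r * (k * polar Q y v) * k = Q r * polar Q y v := by field_simp
    rw [e1, e2, e3]
  · have hw : polar Q (e (1, 0, 0)) (k⁻¹ • e (0, 0, -(-(k • σ)))) = 0 := by
      rw [polar_smul_right, polar_e10 he]; simp
    rw [Ph_up he hk _ (Q_e10 he) hw]
    apply siegel_cg
    · exact hex.symm
    · rw [← hs, ← map_smul]
      congr 1
      refine Prod.ext ?_ (Prod.ext ?_ ?_)
      · simp
      · simp
      · simp [smul_smul, inv_mul_cancel₀ hk]

open Cfsg.Agent.H140.OreO in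
/-- **The piece of S2465.** -/
theorem minus_four [Finite F] (hF : Nat.card F = 2 ∨ Nat.card F = 3) (hQ : Nondeg Q) (h4 : finrank F V = 4)
    {w w' : Fin 1 → V} (hf : Frame Q w w') (han : ∀ v ∈ perp Q w w', Q v = 0 → v = 0) {g : V ≃ₗ[F] V} (hg : g ∈ O Q)
    (hc : corner Q g w w' = 1) (hs : SchurOne Q g w w') :
    ∃ X Y : V ≃ₗ[F] V, X ∈ E Q ∧ Y ∈ E Q ∧ g = X * Y ∧ X ^ 5 = 1 ∧ Y ^ 5 = 1 ∧ X ≠ 1 ∧ Y ≠ 1 := by
  have hxy : Hyp Q (w 0) (w' 0) := ⟨hf.sl 0, hf.sr 0, by rw [hf.lr]; simp⟩
  have hperp : ∀ v, polar Q (w 0) v = 0 → polar Q (w' 0) v = 0 → v ∈ perp Q w w' := by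
    intro v h1 h2 i
    rw [Subsingleton.elim i 0]
    exact ⟨h1, h2⟩
  have h := minus4_of hQ h4 hxy (fun v h1 h2 h3 => han v (hperp v h1 h2) h3)
  have hc' : polar Q (w' 0) (g (w 0)) = 1 := by
    have h1 := congrFun (congrFun hc 0) 0
    rw [corner_apply, Matrix.one_apply_eq] at h1
    rw [polar_comm, h1]
  obtain ⟨r, s, hyr, hxs, hxr, hys, hgrs⟩ := eq_siegel hxy hg hc' (by
    intro v h1 h2
    obtain ⟨c, d, hcd⟩ := hs v (hperp v h1 h2)
    refine ⟨c 0, d 0, ?_⟩
    rw [Fin.sum_univ_one, Fin.sum_univ_one] at hcd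
    exact hcd)
  rw [hgrs]
  exact four_siegel hF h hxy hyr hxs hxr hys

end Cfsg.Agent.H170.PW
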